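import Cfsg.Agent.DG33.Six
import Cfsg.Agent.ClassO.Iso6n

/-!
Degree graphs of groups of order 6048.
-/

set_option autoImplicit false

namespace Cfsg.Agent.DG33

open Cfsg

universe u

theorem prime_cases {p : ℕ} (hp : p.Prime) (h : p ∣ 6048) : p = 2 ∨ p = 3 ∨ p = 7 := by
  have h1 : (6048 : ℕ) = 2 ^ 5 * 3 ^ 3 * 7 := by norm_num
  rw [h1, hp.dvd_mul, hp.dvd_mul] at h
  rcases h with (h | h) | h
  · exact Or.inl ((Nat.prime_dvd_prime_iff_eq hp Nat.prime_two).1 (hp.dvd_of_dvd_pow h))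
  · exact Or.inr (Or.inl ((Nat.prime_dvd_prime_iff_eq hp Nat.prime_three).1 (hp.dvd_of_dvd_pow h)))
  · exact Or.inr (Or.inr ((Nat.prime_dvd_prime_iff_eq hp (by norm_num)).1 h))

variable {G : Type u} [Group G] [Finite G]

theorem deg_dvd (hc : Nat.card G = 6048) {d : ℕ} (hd : d ∈ charDegrees G) : d ∣ 6048 := by
  haveI : Fintype G := Fintype.ofFinite G
  obtain ⟨χ, rfl⟩ := hd
  rw [← hc]
  exact CharBase.degree_dvd_card χ.2 (BR.dg_eq χ)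

theorem primes_eq (hc : Nat.card G = 6048) (h6 : ∃ d ∈ charDegrees G, 6 ∣ d) (h14 : ∃ d ∈ charDegrees G, 14 ∣ d) :
    degreePrimes G = {p | p = 2 ∨ p = 3 ∨ p = 7} := by
  ext p
  constructor
  · rintro ⟨hp, d, hd, hpd⟩
    exact prime_cases hp (hpd.trans (deg_dvd hc hd))
  · obtain ⟨d6, hd6, e6⟩ := h6
    obtain ⟨d14, hd14, e14⟩ := h14
    rintro (rfl | rfl | rfl)
    · exact ⟨Nat.prime_two, d6, hd6, (by norm_num : 2 ∣ 6).trans e6⟩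
    · exact ⟨Nat.prime_three, d6, hd6, (by norm_num : 3 ∣ 6).trans e6⟩
    · exact ⟨by norm_num, d14, hd14, (by norm_num : 7 ∣ 14).trans e14⟩

theorem graph_adj (hc : Nat.card G = 6048) (h6 : ∃ d ∈ charDegrees G, 6 ∣ d) (h14 : ∃ d ∈ charDegrees G, 14 ∣ d)
    (h21 : ∃ d ∈ charDegrees G, 21 ∣ d) (p q : ℕ) :
    (degreeGraph G).Adj p q ↔ p ≠ q ∧ (p = 2 ∨ p = 3 ∨ p = 7) ∧ (q = 2 ∨ q = 3 ∨ q = 7) := by
  constructor
  · rintro ⟨hpq, hp, hq, d, hd, hpd⟩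
    refine ⟨hpq, prime_cases hp ((Dvd.intro _ rfl).trans (hpd.trans (deg_dvd hc hd))),
      prime_cases hq ((Dvd.intro_left _ rfl).trans (hpd.trans (deg_dvd hc hd)))⟩
  · obtain ⟨d6, hd6, e6⟩ := h6
    obtain ⟨d14, hd14, e14⟩ := h14
    obtain ⟨d21, hd21, e21⟩ := h21
    have p7 : Nat.Prime 7 := by norm_num
    rintro ⟨hpq, (rfl | rfl | rfl), (rfl | rfl | rfl)⟩
    · exact absurd rfl hpq
    · exact ⟨hpq, Nat.prime_two, Nat.prime_three, d6, hd6, e6⟩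
    · exact ⟨hpq, Nat.prime_two, p7, d14, hd14, e14⟩
    · exact ⟨hpq, Nat.prime_three, Nat.prime_two, d6, hd6, e6⟩
    · exact absurd rfl hpq
    · exact ⟨hpq, Nat.prime_three, p7, d21, hd21, e21⟩
    · exact ⟨hpq, p7, Nat.prime_two, d14, hd14, e14⟩
    · exact ⟨hpq, p7, Nat.prime_three, d21, hd21, e21⟩
    · exact absurd rfl hpq

theorem psu33_equiv {F : Type u} [Field F] [Fintype F] (hF : Fintype.card F = 9) : Nonempty (PSU 3 F 3 ≃* J2Tab.K1) := by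
  obtain ⟨e⟩ := J2Tab.exists_iso9
  have hc : Fintype.card F = Fintype.card J2Tab.F9 := by rw [hF, J2Tab.card_f9]
  exact ⟨(ClassBase.quotCenterCongr (ClassO.suCongr (FiniteField.ringEquivOfCardEq hc) 3)).trans e.symm⟩

theorem main {F : Type u} [Field F] [Fintype F] (hF : Fintype.card F = 9) :
    ∃ (H : Type) (_ : Group H) (_ : Fintype H), Group.IsSolvable H ∧ Nat.card H = 6048 ∧
      degreePrimes H = degreePrimes (PSU 3 F 3) ∧ degreeGraph H = degreeGraph (PSU 3 F 3) := by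
  obtain ⟨H, iG, iF, hsol, hcard, χ, hχ⟩ := exists_H
  obtain ⟨e⟩ := psu33_equiv hF
  haveI := finite_K1
  have hcd := H34.Deg.charDegrees_equiv e
  have e1 : degreePrimes (PSU 3 F 3) = degreePrimes J2Tab.K1 := by unfold degreePrimes; rw [hcd]
  have e2 : ∀ p q, (degreeGraph (PSU 3 F 3)).Adj p q ↔ (degreeGraph J2Tab.K1).Adj p q := by
    intro p q
    change (p ≠ q ∧ p.Prime ∧ q.Prime ∧ ∃ d ∈ charDegrees (PSU 3 F 3), p * q ∣ d) ↔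
      (p ≠ q ∧ p.Prime ∧ q.Prime ∧ ∃ d ∈ charDegrees J2Tab.K1, p * q ∣ d)
    rw [hcd]
  obtain ⟨⟨χ14, h14⟩, ⟨χ21, h21⟩⟩ := deg_14_21
  obtain ⟨χ6, h6⟩ := six
  have H6 : ∃ d ∈ charDegrees H, 6 ∣ d := ⟨42, ⟨χ, hχ⟩, by norm_num⟩
  have H14 : ∃ d ∈ charDegrees H, 14 ∣ d := ⟨42, ⟨χ, hχ⟩, by norm_num⟩
  have H21 : ∃ d ∈ charDegrees H, 21 ∣ d := ⟨42, ⟨χ, hχ⟩, by norm_num⟩
  have K6 : ∃ d ∈ charDegrees J2Tab.K1, 6 ∣ d := ⟨_, ⟨χ6, rfl⟩, h6⟩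
  have K14 : ∃ d ∈ charDegrees J2Tab.K1, 14 ∣ d := ⟨14, ⟨χ14, h14⟩, dvd_rfl⟩
  have K21 : ∃ d ∈ charDegrees J2Tab.K1, 21 ∣ d := ⟨21, ⟨χ21, h21⟩, dvd_rfl⟩
  refine ⟨H, iG, iF, hsol, hcard, ?_, ?_⟩
  · rw [e1, primes_eq hcard H6 H14, primes_eq J2Tab.card_K1 K6 K14]
  · ext p q
    rw [e2, graph_adj hcard H6 H14 H21, graph_adj J2Tab.card_K1 K6 K14 K21]

end Cfsg.Agent.DG33
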