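import Cfsg.Agent.Char.Correspondence
import Cfsg.Agent.H34.PDeg

/-!
The affine group `R ⋊ Rˣ` of a finite commutative ring with a primitive additive character has an
irreducible character of degree `|Rˣ|`.
-/

set_option autoImplicit false

namespace Cfsg.Agent.DG33

open Cfsg Cfsg.Agent.Char Cfsg.Agent.CharBase

/-- multiplication by units -/
def holAct (R : Type) [CommRing R] : Rˣ →* MulAut (Multiplicative R) where
  toFun u :=
    { toFun := fun x => Multiplicative.ofAdd ((u : R) * x.toAdd)
      invFun := fun x => Multiplicative.ofAdd (((u⁻¹ : Rˣ) : R) * x.toAdd)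
      left_inv := fun x => by simp
      right_inv := fun x => by simp
      map_mul' := fun x y => by
        simp only [toAdd_mul, mul_add, ofAdd_add] }
  map_one' := by
    ext x
    simp
  map_mul' u v := by
    ext x
    simp [mul_assoc]

theorem holAct_apply (R : Type) [CommRing R] (u : Rˣ) (x : Multiplicative R) :
    holAct R u x = Multiplicative.ofAdd ((u : R) * x.toAdd) := rfl

/-- the affine group -/
abbrev Hol (R : Type) [CommRing R] : Type := Multiplicative R ⋊[holAct R] Rˣ

variable (R : Type) [CommRing R]

theorem card_hol [Finite R] : Nat.card (Hol R) = Nat.card R * Nat.card Rˣ := by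
  have h : Nat.card (Hol R) = Nat.card (Multiplicative R × Rˣ) :=
    Nat.card_congr SemidirectProduct.equivProd
  rw [h, Nat.card_prod]
  rfl

theorem solvable_hol : Group.IsSolvable (Hol R) := by
  apply solvable_of_ker_le_range (SemidirectProduct.inl : Multiplicative R →* Hol R)
    (SemidirectProduct.rightHom : Hol R →* Rˣ)
  rw [SemidirectProduct.range_inl_eq_ker_rightHom]

/-- translations -/
abbrev trn : Subgroup (Hol R) := (SemidirectProduct.rightHom : Hol R →* Rˣ).ker

theorem exists_irr [Finite R] (ψ : AddChar R ℂ) (hψ : ∀ a : R, (∀ x, ψ (a * x) = 1) → a = 0) :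
    ∃ χ : IrrCharacter (Hol R), charDegree (χ : Hol R → ℂ) = Nat.card Rˣ := by
  classical
  haveI : Finite (Hol R) := Finite.of_equiv _ SemidirectProduct.equivProd.symm
  haveI : Fintype (Hol R) := Fintype.ofFinite _
  let N : Subgroup (Hol R) := trn R
  haveI : Fintype N := Fintype.ofFinite _
  have hN : ∀ n : N, (n : Hol R).right = 1 := fun n => n.2
  let f : N →* ℂ :=
    { toFun := fun n => ψ ((n : Hol R).left.toAdd)
      map_one' := by simp
      map_mul' := fun a b => by
        have h1 : ((a * b : N) : Hol R).left = (a : Hol R).left * (b : Hol R).left := by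
          rw [Subgroup.coe_mul, SemidirectProduct.mul_left, hN a, map_one]
          rfl
        rw [h1, toAdd_mul, AddChar.map_add_eq_mul] }
  have hf : IsIrrCharacter N (f : N → ℂ) := isIrrCharacter_of_hom f
  have hin : N = inertia N (f : N → ℂ) := by
    apply le_antisymm
    · intro g hg
      exact cj_of_mem N g hg (isClassFunction_of_isCharacter (isCharacter_of_isIrr hf))
    · intro g hg
      have hg' : cj N g (f : N → ℂ) = f := hg
      have key : ∀ x : R, ψ ((g.right : R) * x) = ψ x := by
        intro x
        have hmem : (SemidirectProduct.inl (Multiplicative.ofAdd x) : Hol R) ∈ N := by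
          change SemidirectProduct.rightHom _ = 1
          rw [SemidirectProduct.rightHom_inl]
        have h1 := congrFun hg' ⟨_, hmem⟩
        rw [cj_apply] at h1
        change ψ (((g * SemidirectProduct.inl (Multiplicative.ofAdd x) * g⁻¹ : Hol R)).left.toAdd) = ψ x at h1
        rw [← h1]
        congr 1
        simp only [SemidirectProduct.mul_left, SemidirectProduct.left_inl, SemidirectProduct.inv_left,
          SemidirectProduct.mul_right, SemidirectProduct.right_inl, holAct_apply, toAdd_mul, toAdd_ofAdd, mul_one]
        simp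
      have h2 : (g.right : R) - 1 = 0 := by
        apply hψ
        intro x
        rw [sub_mul, one_mul, AddChar.map_sub_eq_div, key x, div_self]
        exact (ψ.val_isUnit x).ne_zero
      change SemidirectProduct.rightHom g = 1
      apply Units.ext
      exact sub_eq_zero.1 h2
  have hirr : IsIrrCharacter (Hol R) (indFun N (f : N → ℂ)) := by
    refine isIrr_indFun_of_inertia N N hf hin le_rfl hf ?_
    have h1 := classInner_irr_self (⟨_, hf⟩ : IrrCharacter N)
    change classInner (f : N → ℂ) (f : N → ℂ) ≠ 0
    rw [h1]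
    exact one_ne_zero
  refine ⟨⟨_, hirr⟩, ?_⟩
  apply H34.Deg.charDegree_of_eq
  change indFun N (f : N → ℂ) 1 = _
  rw [indFun_one_apply]
  have h1 : (f : N → ℂ) 1 = 1 := map_one f
  have h2 : N.index = Nat.card Rˣ := by
    rw [Subgroup.index_ker, MonoidHom.range_eq_top.2 SemidirectProduct.rightHom_surjective, Subgroup.card_top]
  rw [h1, h2, mul_one]

/-- the field with eight elements -/
abbrev K8 : Type := GaloisField 2 3

theorem card_K8 : Nat.card K8 = 8 := by
  rw [GaloisField.card 2 3 (by norm_num)]
  norm_num

theorem exists_H : ∃ (H : Type) (_ : Group H) (_ : Fintype H), Group.IsSolvable H ∧ Nat.card H = 6048 ∧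
    ∃ χ : IrrCharacter H, charDegree (χ : H → ℂ) = 42 := by
  classical
  haveI : Finite K8 := Nat.finite_of_card_ne_zero (by rw [card_K8]; norm_num)
  let R : Type := K8 × ZMod 18
  haveI : Finite R := inferInstanceAs (Finite (K8 × ZMod 18))
  haveI : Finite (Hol R) := Finite.of_equiv _ SemidirectProduct.equivProd.symm
  have hu : Nat.card Rˣ = 42 := by
    have h1 : Nat.card Rˣ = Nat.card (K8ˣ × (ZMod 18)ˣ) := Nat.card_congr MulEquiv.prodUnits.toEquiv
    rw [h1, Nat.card_prod, Nat.card_units, card_K8, Nat.card_eq_fintype_card (α := (ZMod 18)ˣ), ZMod.card_units_eq_totient]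
    decide
  refine ⟨Hol R, inferInstance, Fintype.ofFinite _, solvable_hol R, ?_, ?_⟩
  · rw [card_hol, hu]
    have h1 : Nat.card R = 144 := by
      change Nat.card (K8 × ZMod 18) = 144
      rw [Nat.card_prod, card_K8, Nat.card_zmod]
    rw [h1]
  · rw [← hu]
    let ψ1 : AddChar K8 ℂ := AddChar.FiniteField.primitiveChar_to_Complex K8
    have hψ1 : ψ1.IsPrimitive := AddChar.FiniteField.primitiveChar_to_Complex_isPrimitive K8
    let ψ2 : AddChar (ZMod 18) ℂ := ZMod.stdAddChar
    have hψ2 : ψ2.IsPrimitive := ZMod.isPrimitive_stdAddChar 18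
    let ψ : AddChar R ℂ := ψ1.compAddMonoidHom (AddMonoidHom.fst K8 (ZMod 18)) * ψ2.compAddMonoidHom (AddMonoidHom.snd K8 (ZMod 18))
    have hval : ∀ x : K8 × ZMod 18, ψ x = ψ1 x.1 * ψ2 x.2 := fun x => rfl
    apply exists_irr R ψ
    intro a ha
    have h1 : a.1 = 0 := by
      by_contra hne
      apply hψ1 hne
      ext x
      have := ha (x, 0)
      rw [hval] at this
      change ψ1 (a.1 * x) * ψ2 (a.2 * 0) = 1 at this
      rw [mul_zero, AddChar.map_zero_eq_one, mul_one] at this
      rw [AddChar.mulShift_apply, this]
      rfl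
    have h2 : a.2 = 0 := by
      by_contra hne
      apply hψ2 hne
      ext x
      have := ha (0, x)
      rw [hval] at this
      change ψ1 (a.1 * 0) * ψ2 (a.2 * x) = 1 at this
      rw [mul_zero, AddChar.map_zero_eq_one, one_mul] at this
      rw [AddChar.mulShift_apply, this]
      rfl
    exact Prod.ext h1 h2

end Cfsg.Agent.DG33
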