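import Cfsg.Agent.DG33.Rank
import Cfsg.Agent.DG33.Hol

/-!
The permutation character of degree 63 of a group acting with rank 4 on the points of a
generalized hexagon of order (2, 2).
-/

set_option autoImplicit false

namespace Cfsg.Agent.DG33

open Cfsg Cfsg.Agent.Char Cfsg.Agent.CharBase Polynomial Matrix

universe u

section alg

variable {G : Type u} [Group G] {Ω : Type} [Fintype Ω] [DecidableEq Ω] [MulAction G Ω]

/-- the algebra of invariant matrices -/
def invAlg (G : Type u) [Group G] (Ω : Type) [Fintype Ω] [DecidableEq Ω] [MulAction G Ω] :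
    Subalgebra ℂ (Matrix Ω Ω ℂ) where
  carrier := {P | InvM G P}
  mul_mem' := by
    intro A B hA hB g x y
    rw [Matrix.mul_apply, Matrix.mul_apply, ← Equiv.sum_comp (MulAction.toPerm g)]
    apply Finset.sum_congr rfl
    intro z _
    rw [MulAction.toPerm_apply, hA, hB]
  add_mem' := by
    intro A B hA hB g x y
    rw [Matrix.add_apply, Matrix.add_apply, hA, hB]
  algebraMap_mem' := by
    intro r g x y
    rw [Matrix.algebraMap_matrix_apply, Matrix.algebraMap_matrix_apply]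
    simp only [smul_left_cancel_iff]

theorem aeval_mem {A : Matrix Ω Ω ℂ} (hA : InvM G A) (p : ℂ[X]) : InvM G (aeval A p) := by
  have h1 : aeval A p ∈ Algebra.adjoin ℂ {A} := aeval_mem_adjoin_singleton ℂ A
  have h2 : Algebra.adjoin ℂ {A} ≤ invAlg G Ω := by
    rw [Algebra.adjoin_le_iff]
    intro B hB
    rw [Set.mem_singleton_iff.1 hB]
    exact hA
  exact h2 h1

end alg

/-- the minimal polynomial -/
noncomputable def qpol : ℂ[X] := X ^ 4 - 5 * X ^ 3 - 15 * X ^ 2 + 45 * X + 54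

/-- the scalar 1/1512 -/
noncomputable def uu : ℂ[X] := C (1 / 1512)

theorem uu_mul : 1512 * uu = 1 := by
  unfold uu
  have h : (1512 : ℂ[X]) = C 1512 := rfl
  rw [h, ← C_mul]
  norm_num

/-- spectral idempotent -/
noncomputable def pp0 : ℂ[X] := uu * 8 * (X ^ 3 + X ^ 2 - 9 * X - 9)
/-- spectral idempotent -/
noncomputable def pp1 : ℂ[X] := uu * (-21) * (X ^ 3 - 2 * X ^ 2 - 21 * X - 18)
/-- spectral idempotent -/
noncomputable def pp2 : ℂ[X] := uu * (-14) * (X ^ 3 - 8 * X ^ 2 + 9 * X + 18)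
/-- spectral idempotent -/
noncomputable def pp3 : ℂ[X] := uu * 27 * (X ^ 3 - 6 * X ^ 2 - 9 * X + 54)

/-- the spectral idempotents -/
noncomputable def ppol : Fin 4 → ℂ[X] := ![pp0, pp1, pp2, pp3]

theorem sum_ppol : ∑ i, ppol i = 1 := by
  rw [Fin.sum_univ_four]
  change pp0 + pp1 + pp2 + pp3 = 1
  unfold pp0 pp1 pp2 pp3
  linear_combination uu_mul

theorem ppol_sq (i : Fin 4) : ∃ r, ppol i * ppol i = ppol i + qpol * r := by
  fin_cases i
  · change ∃ r, pp0 * pp0 = pp0 + qpol * r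
    refine ⟨64 * uu ^ 2 * (X ^ 2 + 7 * X + 33), ?_⟩
    unfold pp0 qpol
    linear_combination (8 * uu * (X ^ 3 + X ^ 2 - 9 * X - 9)) * uu_mul
  · change ∃ r, pp1 * pp1 = pp1 + qpol * r
    refine ⟨441 * uu ^ 2 * (X ^ 2 + X - 18), ?_⟩
    unfold pp1 qpol
    linear_combination (-21 * uu * (X ^ 3 - 2 * X ^ 2 - 21 * X - 18)) * uu_mul
  · change ∃ r, pp2 * pp2 = pp2 + qpol * r
    refine ⟨196 * uu ^ 2 * (X ^ 2 - 11 * X + 42), ?_⟩
    unfold pp2 qpol
    linear_combination (-14 * uu * (X ^ 3 - 8 * X ^ 2 + 9 * X + 18)) * uu_mul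
  · change ∃ r, pp3 * pp3 = pp3 + qpol * r
    refine ⟨729 * uu ^ 2 * (X ^ 2 - 7 * X - 2), ?_⟩
    unfold pp3 qpol
    linear_combination (27 * uu * (X ^ 3 - 6 * X ^ 2 - 9 * X + 54)) * uu_mul

theorem aeval_num {Ω : Type} [Fintype Ω] [DecidableEq Ω] (A : Matrix Ω Ω ℂ) (n : ℕ) [n.AtLeastTwo] :
    aeval A (ofNat(n) : ℂ[X]) = (ofNat(n) : ℂ) • (1 : Matrix Ω Ω ℂ) := by
  rw [← Algebra.algebraMap_eq_smul_one, map_ofNat, map_ofNat]

theorem aeval_uu {Ω : Type} [Fintype Ω] [DecidableEq Ω] (A : Matrix Ω Ω ℂ) :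
    aeval A uu = (1 / 1512 : ℂ) • (1 : Matrix Ω Ω ℂ) := by
  unfold uu
  rw [aeval_C, Algebra.algebraMap_eq_smul_one]

section main

variable {G : Type u} [Group G] [Fintype G] {Ω : Type} [Fintype Ω] [DecidableEq Ω] [MulAction G Ω]

theorem hexagon (a : Ω → Ω → ℕ) (hinv : ∀ (g : G) x y, a (g • x) (g • y) = a x y) (x0 : Ω)
    (htr : ∀ x : Ω, ∃ g : G, g • x0 = x) (hcard : Fintype.card Ω = 63) (h0 : a x0 x0 = 0)
    (h1 : ∑ z, a x0 z = 6)
    (h2 : ∑ z, a x0 z * a z x0 = 6)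
    (hrow : ∀ y, ∑ z, a x0 z * ∑ w, a z w * a w y + ∑ z, a x0 z * a z y =
      9 * a x0 y + (if x0 = y then 9 else 0) + 3)
    (s : Finset (Ω × Ω)) (hs : s.card ≤ 4) (horb : ∀ p : Ω × Ω, ∃ y ∈ s, ∃ g : G, g • y = p) :
    (∃ χ : IrrCharacter G, charDegree (χ : G → ℂ) = 14) ∧ (∃ χ : IrrCharacter G, charDegree (χ : G → ℂ) = 21) := by
  classical
  let A : Matrix Ω Ω ℂ := Matrix.of fun x y => (a x y : ℂ)
  let J : Matrix Ω Ω ℂ := Matrix.of fun _ _ => 1
  have hAapp : ∀ x y, A x y = (a x y : ℂ) := fun x y => rfl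
  have hA : InvM G A := fun g x y => by rw [hAapp, hAapp, hinv]
  have hJ : InvM G J := fun g x y => rfl
  have hone : InvM G (1 : Matrix Ω Ω ℂ) := (invAlg G Ω).one_mem
  have hsq : InvM G (A ^ 2) := (invAlg G Ω).pow_mem hA 2
  have hcu : InvM G (A ^ 3) := (invAlg G Ω).pow_mem hA 3
  have e2 : ∀ x y, (A ^ 2) x y = ((∑ z, a x z * a z y : ℕ) : ℂ) := by
    intro x y
    rw [pow_two, Matrix.mul_apply]
    push_cast
    rfl
  have e3 : ∀ x y, (A ^ 3) x y = ((∑ z, a x z * ∑ w, a z w * a w y : ℕ) : ℂ) := by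
    intro x y
    rw [pow_succ', Matrix.mul_apply]
    push_cast
    apply Finset.sum_congr rfl
    intro z _
    rw [e2, hAapp]
    push_cast
    rfl
  -- the cubic relation
  have hcub : A ^ 3 + A ^ 2 - (9 : ℂ) • A - (9 : ℂ) • (1 : Matrix Ω Ω ℂ) = (3 : ℂ) • J := by
    have hL : InvM G (A ^ 3 + A ^ 2 - (9 : ℂ) • A - (9 : ℂ) • (1 : Matrix Ω Ω ℂ)) := by
      intro g x y
      simp only [Matrix.add_apply, Matrix.sub_apply, Matrix.smul_apply, hcu g x y, hsq g x y, hA g x y, hone g x y]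
    ext x y
    obtain ⟨g, rfl⟩ := htr x
    obtain ⟨y, rfl⟩ := MulAction.surjective g y
    rw [hL g x0 y]
    have h := hrow y
    simp only [Matrix.add_apply, Matrix.sub_apply, Matrix.smul_apply, e3, e2, hAapp, Matrix.one_apply, smul_eq_mul]
    have h' : ((∑ z, a x0 z * ∑ w, a z w * a w y : ℕ) : ℂ) + ((∑ z, a x0 z * a z y : ℕ) : ℂ) =
        9 * (a x0 y : ℂ) + (if x0 = y then 9 else 0) + 3 := by
      have := congrArg (Nat.cast : ℕ → ℂ) h
      push_cast at this ⊢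
      exact this
    rw [h']
    change _ = (3 : ℂ) * (1 : ℂ)
    split_ifs <;> ring
  have hAJ : A * J = (6 : ℂ) • J := by
    ext x y
    obtain ⟨g, rfl⟩ := htr x
    rw [Matrix.mul_apply]
    have h3 : ∑ z, A (g • x0) z * J z y = ∑ z, (a x0 z : ℂ) := by
      rw [← Equiv.sum_comp (MulAction.toPerm g)]
      apply Finset.sum_congr rfl
      intro z _
      rw [MulAction.toPerm_apply, hA, hAapp]
      change _ * (1 : ℂ) = _
      rw [mul_one]
    rw [h3, ← Nat.cast_sum, h1, Matrix.smul_apply]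
    change _ = (6 : ℂ) * (1 : ℂ)
    norm_num
  have hq : aeval A qpol = 0 := by
    have h3 : (A - (6 : ℂ) • 1) * (A ^ 3 + A ^ 2 - (9 : ℂ) • A - (9 : ℂ) • (1 : Matrix Ω Ω ℂ)) = 0 := by
      rw [hcub, mul_smul_comm, sub_mul, hAJ, smul_mul_assoc, one_mul, sub_self, smul_zero]
    have h4 : aeval A qpol = (A - (6 : ℂ) • 1) * (A ^ 3 + A ^ 2 - (9 : ℂ) • A - (9 : ℂ) • (1 : Matrix Ω Ω ℂ)) := by
      have h5 : qpol = (X - 6) * (X ^ 3 + X ^ 2 - 9 * X - 9) := by unfold qpol; ring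
      rw [h5, map_mul]
      simp only [map_sub, map_add, map_mul, map_pow, aeval_X, aeval_num, smul_mul_assoc, one_mul]
    rw [h4, h3]
  let P : Fin 4 → Matrix Ω Ω ℂ := fun i => aeval A (ppol i)
  have hP : ∀ i, P i * P i = P i := by
    intro i
    obtain ⟨r, hr⟩ := ppol_sq i
    change aeval A (ppol i) * aeval A (ppol i) = aeval A (ppol i)
    rw [← map_mul, hr, map_add, map_mul, hq, zero_mul, add_zero]
  have hPG : ∀ i, InvM G (P i) := fun i => aeval_mem hA _
  have hPsum : ∑ i, P i = 1 := by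
    change ∑ i, aeval A (ppol i) = 1
    rw [← map_sum, sum_ppol, map_one]
  let θ : Fin 4 → G → ℂ := fun i g => ∑ x : Ω, P i x (g • x)
  have hθ : ∀ i, IsCharacter G (θ i) := fun i => isCharacter_proj (hP i) (hPG i)
  have hsum : ∑ i, θ i = fun g : G => ∑ x : Ω, (1 : Matrix Ω Ω ℂ) x (g • x) := by
    funext g
    rw [Finset.sum_apply]
    change ∑ i, ∑ x : Ω, P i x (g • x) = _
    rw [Finset.sum_comm]
    apply Finset.sum_congr rfl
    intro x _
    rw [← hPsum, Matrix.sum_apply]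
  -- traces
  have tr1 : Matrix.trace (1 : Matrix Ω Ω ℂ) = 63 := by rw [Matrix.trace_one, hcard]; norm_num
  have hdiag : ∀ (M : Matrix Ω Ω ℂ), InvM G M → Matrix.trace M = 63 * M x0 x0 := by
    intro M hM
    rw [Matrix.trace]
    have : ∀ x ∈ (Finset.univ : Finset Ω), Matrix.diag M x = M x0 x0 := by
      intro x _
      obtain ⟨g, rfl⟩ := htr x
      rw [Matrix.diag_apply, hM]
    rw [Finset.sum_congr rfl this, Finset.sum_const, Finset.card_univ, hcard, nsmul_eq_mul]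
    norm_num
  have v1 : A x0 x0 = 0 := by rw [hAapp, h0, Nat.cast_zero]
  have v2 : (A ^ 2) x0 x0 = 6 := by rw [e2, h2]; norm_num
  have v3 : (A ^ 3) x0 x0 = 6 := by
    rw [e3]
    have h := hrow x0
    rw [if_pos rfl, h0, h2] at h
    have h' : ∑ z, a x0 z * ∑ w, a z w * a w x0 = 6 := by omega
    rw [h']
    norm_num
  have hθ1 : ∀ i, θ i 1 = 63 * P i x0 x0 := by
    intro i
    rw [← hdiag _ (hPG i)]
    change ∑ x : Ω, P i x ((1 : G) • x) = _
    simp only [one_smul]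
    rfl
  have d0 : θ 0 1 = 1 := by
    rw [hθ1]
    change 63 * (aeval A pp0) x0 x0 = 1
    unfold pp0
    simp only [map_sub, map_add, map_mul, map_pow, map_neg, aeval_X, aeval_num, aeval_uu, smul_mul_assoc, mul_smul_comm,
      one_mul, mul_one, Matrix.smul_apply, Matrix.add_apply, Matrix.sub_apply, Matrix.neg_apply, Matrix.one_apply_eq, smul_eq_mul, v1, v2, v3,
      neg_mul, mul_neg, neg_smul, smul_neg]
    norm_num
  have d1 : θ 1 1 = 21 := by
    rw [hθ1]
    change 63 * (aeval A pp1) x0 x0 = 21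
    unfold pp1
    simp only [map_sub, map_add, map_mul, map_pow, map_neg, aeval_X, aeval_num, aeval_uu, smul_mul_assoc, mul_smul_comm,
      one_mul, mul_one, Matrix.smul_apply, Matrix.add_apply, Matrix.sub_apply, Matrix.neg_apply, Matrix.one_apply_eq, smul_eq_mul, v1, v2, v3,
      neg_mul, mul_neg, neg_smul, smul_neg]
    norm_num
  have d2 : θ 2 1 = 14 := by
    rw [hθ1]
    change 63 * (aeval A pp2) x0 x0 = 14
    unfold pp2
    simp only [map_sub, map_add, map_mul, map_pow, map_neg, aeval_X, aeval_num, aeval_uu, smul_mul_assoc, mul_smul_comm,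
      one_mul, mul_one, Matrix.smul_apply, Matrix.add_apply, Matrix.sub_apply, Matrix.neg_apply, Matrix.one_apply_eq, smul_eq_mul, v1, v2, v3,
      neg_mul, mul_neg, neg_smul, smul_neg]
    norm_num
  have d3 : θ 3 1 = 27 := by
    rw [hθ1]
    change 63 * (aeval A pp3) x0 x0 = 27
    unfold pp3
    simp only [map_sub, map_add, map_mul, map_pow, map_neg, aeval_X, aeval_num, aeval_uu, smul_mul_assoc, mul_smul_comm,
      one_mul, mul_one, Matrix.smul_apply, Matrix.add_apply, Matrix.sub_apply, Matrix.neg_apply, Matrix.one_apply_eq, smul_eq_mul, v1, v2, v3,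
      neg_mul, mul_neg, neg_smul, smul_neg]
    norm_num
  have hne : ∀ i, θ i 1 ≠ 0 := by
    intro i
    fin_cases i
    · change θ 0 1 ≠ 0
      rw [d0]; norm_num
    · change θ 1 1 ≠ 0
      rw [d1]; norm_num
    · change θ 2 1 ≠ 0
      rw [d2]; norm_num
    · change θ 3 1 ≠ 0
      rw [d3]; norm_num
  have hirr := irr_of_sum θ hθ hne (Fintype.card (MulAction.orbitRel.Quotient G (Ω × Ω)))
    (by rw [hsum]; exact classInner_perm) (by
      rw [Fintype.card_fin]
      exact (card_orbits_le s horb).trans hs)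
  refine ⟨⟨⟨_, hirr 2⟩, ?_⟩, ⟨⟨_, hirr 1⟩, ?_⟩⟩
  · rw [charDegree]
    change ⌊(θ 2 1).re⌋₊ = 14
    rw [d2]
    norm_num
  · rw [charDegree]
    change ⌊(θ 1 1).re⌋₊ = 21
    rw [d1]
    norm_num

end main

end Cfsg.Agent.DG33
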