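import Cfsg.Agent.DG33.Data
import Cfsg.Agent.DG33.Hex

/-!
`PSU(3,3)` acting on 63 points: characters of degree 14 and 21.
-/

set_option autoImplicit false

namespace Cfsg.Agent.DG33

open Cfsg Cfsg.Agent.PermTab Cfsg.Agent.J2Tab MulAction Finset

/-- adjacency -/
def adjB (x y : ℕ) : Bool := Nat.testBit adjN (Nat.add (Nat.mul 100 x) y)

theorem adj_ok : lall lev1.gens (fun g => nall (fun x => fc (tget 7 g x) fun x' => nall (fun y =>
    beq2 (adjB x' (tget 7 g y)) (adjB x y)) 100) 100) = true := by
  decide +kernel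

theorem K1_mask {k : Equiv.Perm (Fin 100)} (hk : k ∈ K1) (x : Fin 100) :
    mask63.testBit (k x : Fin 100) = mask63.testBit x := by
  have hK : K1 = Subgroup.closure {x | ∃ g ∈ lev1.gens, x = toPerm 7 100 g} := rfl
  rw [hK] at hk
  revert x
  induction hk using Subgroup.closure_induction with
  | mem k hk =>
    obtain ⟨g, hg, rfl⟩ := hk
    intro x
    rw [toPerm_apply (inGrp1 hg).1]
    exact beq2_iff.1 ((nall_iff _ _).1 ((lall_iff _ _).1 mask_ok g hg) x x.2)
  | one => intro x; rfl
  | mul a b _ _ ha hb => intro x; rw [Equiv.Perm.mul_apply, ha, hb]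
  | inv a _ ha =>
    intro x
    have h : a (a⁻¹ x) = x := Equiv.apply_symm_apply a x
    rw [← ha (a⁻¹ x), h]

theorem K1_adj {k : Equiv.Perm (Fin 100)} (hk : k ∈ K1) (x y : Fin 100) :
    adjB (k x : Fin 100) (k y : Fin 100) = adjB x y := by
  have hK : K1 = Subgroup.closure {x | ∃ g ∈ lev1.gens, x = toPerm 7 100 g} := rfl
  rw [hK] at hk
  revert x y
  induction hk using Subgroup.closure_induction with
  | mem k hk =>
    obtain ⟨g, hg, rfl⟩ := hk
    intro x y
    rw [toPerm_apply (inGrp1 hg).1, toPerm_apply (inGrp1 hg).1]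
    have h1 := (nall_iff _ _).1 ((lall_iff _ _).1 adj_ok g hg) x x.2
    simp only [fc_eq] at h1
    exact beq2_iff.1 ((nall_iff _ _).1 h1 y y.2)
  | one => intro x y; rfl
  | mul a b _ _ ha hb => intro x y; rw [Equiv.Perm.mul_apply, Equiv.Perm.mul_apply, ha, hb]
  | inv a _ ha =>
    intro x y
    have h : ∀ x, a (a⁻¹ x) = x := fun x => Equiv.apply_symm_apply a x
    rw [← ha (a⁻¹ x) (a⁻¹ y), h, h]

/-- the 63 points -/
abbrev Om63 : Type := {x : Fin 100 // mask63.testBit x = true}

noncomputable instance om63Act : MulAction K1 Om63 where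
  smul k x := ⟨(k : Equiv.Perm (Fin 100)) x.1, by rw [K1_mask k.2]; exact x.2⟩
  one_smul x := rfl
  mul_smul a b x := rfl

theorem om63_smul (k : K1) (x : Om63) : ((k • x : Om63) : Fin 100) = (k : Equiv.Perm (Fin 100)) x.1 := rfl

/-- adjacency as a number -/
def adjA (x y : Om63) : ℕ := if adjB x.1 y.1 = true then 1 else 0

/-- summation over an initial segment -/
def psum (f : ℕ → ℕ) (n : ℕ) : ℕ := Nat.rec (motive := fun _ => ℕ) 0 (fun i ih => Nat.add (f i) ih) n

theorem psum_eq (f : ℕ → ℕ) (n : ℕ) : psum f n = ∑ i ∈ range n, f i := by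
  induction n with
  | zero => rfl
  | succ n ih =>
    rw [sum_range_succ, ← ih]
    exact Nat.add_comm _ _

theorem sum_om (f : ℕ → ℕ) (hf : ∀ x < 100, mask63.testBit x = false → f x = 0) :
    ∑ x : Om63, f x.1 = psum f 100 := by
  classical
  rw [psum_eq, ← Fin.sum_univ_eq_sum_range, ← Finset.sum_subtype (Finset.univ.filter fun x : Fin 100 => mask63.testBit x = true)
    (fun x => by simp) (fun x : Fin 100 => f x)]
  rw [Finset.sum_filter]
  apply Finset.sum_congr rfl
  intro x _
  split_ifs with h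
  · rfl
  · rw [hf x x.2 (by simpa using h)]

/-- two-step walks -/
def n2 (x y : ℕ) : ℕ := psum (fun w => match adjB x w with | true => (match adjB w y with | true => 1 | false => 0) | false => 0) 100

/-- three-step walks -/
def n3 (x y : ℕ) : ℕ := psum (fun z => match adjB x z with | true => n2 z y | false => 0) 100

/-- the value predicted by the cubic relation -/
def rhsN (y : ℕ) : ℕ := Nat.add (Nat.add (match adjB 37 y with | true => 9 | false => 0) (match Nat.beq 37 y with | true => 9 | false => 0)) 3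

theorem row_ok : nall (fun y => match Nat.testBit mask63 y with
    | false => true
    | true => Nat.beq (Nat.add (n3 37 y) (n2 37 y)) (rhsN y)) 100 = true := by
  decide +kernel

theorem adj_out : nall (fun x => match Nat.testBit mask63 x with
    | true => true
    | false => nall (fun y => match adjB x y with
      | true => false
      | false => match adjB y x with | true => false | false => true) 100) 100 = true := by
  decide +kernel

theorem sum_ok : Nat.beq (psum (fun z => match adjB 37 z with | true => 1 | false => 0) 100) 6 = true := by decide +kernel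
theorem n2_ok : Nat.beq (n2 37 37) 6 = true := by decide +kernel

theorem adj_out' {x y : ℕ} (hx : x < 100) (hm : mask63.testBit x = false) (hy : y < 100) :
    adjB x y = false ∧ adjB y x = false := by
  have h := (nall_iff _ _).1 adj_out x hx
  have hm' : Nat.testBit mask63 x = false := hm
  rw [hm'] at h
  have h1 := (nall_iff _ _).1 h y hy
  cases h2 : adjB x y with
  | true =>
    rw [h2] at h1
    exact absurd h1 Bool.false_ne_true
  | false =>
    rw [h2] at h1
    cases h3 : adjB y x with
    | true =>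
      rw [h3] at h1
      exact absurd h1 Bool.false_ne_true
    | false => exact ⟨rfl, rfl⟩

theorem sum_two (x y : Om63) : ∑ z : Om63, adjA x z * adjA z y = n2 x.1 y.1 := by
  unfold n2
  rw [← sum_om]
  · apply Finset.sum_congr rfl
    intro z _
    unfold adjA
    cases h1 : adjB x.1 z.1 <;> cases h2 : adjB z.1 y.1 <;> simp
  · intro z hz hm
    rw [(adj_out' hz hm x.1.2).2]

theorem sum_three (x y : Om63) : ∑ z : Om63, adjA x z * ∑ w : Om63, adjA z w * adjA w y = n3 x.1 y.1 := by
  unfold n3
  rw [← sum_om]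
  · apply Finset.sum_congr rfl
    intro z _
    rw [sum_two]
    unfold adjA
    cases h1 : adjB x.1 z.1 <;> simp
  · intro z hz hm
    rw [(adj_out' hz hm x.1.2).2]

/-- base point -/
def pt37 : Om63 := ⟨37, by decide⟩

theorem trans63 (x : Om63) : ∃ g : K1, g • pt37 = x := by
  have h2 : x.1 ∈ orbit (grp 7 100 [lev1, lev2, lev3]) (⟨37, by norm_num⟩ : Fin 100) := by
    apply orbit_of_reach (w := 7) (g0 := g2) (gens := [g2, g3, g4, g5]) (inGrp1 (by decide)) _ _ reach63 (m := mask63) _ x.1 x.2
    · intro g hg; exact inGrp1 hg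
    · decide +kernel
  obtain ⟨g, hg⟩ := h2
  exact ⟨g, Subtype.ext hg⟩

/-- the stabilizer of 37 -/
noncomputable def H37 : Subgroup (Equiv.Perm (Fin 100)) := K1 ⊓ MulAction.stabilizer (Equiv.Perm (Fin 100)) (37 : Fin 100)

theorem inH {t : ℕ} (hv : tvalid 7 100 t = true) (hs : sift 7 100 idt [lev1, lev2, lev3] t = true)
    (hf : tget 7 t 37 = 37) : InGrp 7 100 H37 t := by
  refine ⟨hv, ⟨mem_of_sift (by norm_num) hid chk1 hv hs, ?_⟩⟩
  change toPerm 7 100 t (37 : Fin 100) = 37
  apply Fin.ext
  rw [toPerm_apply hv]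
  exact hf

theorem inH_a : InGrp 7 100 H37 aT := inH (by decide +kernel) (by decide +kernel) (by decide +kernel)
theorem inH_b : InGrp 7 100 H37 bT := inH (by decide +kernel) (by decide +kernel) (by decide +kernel)

theorem inH_ab (g : ℕ) (hg : g ∈ [aT, bT]) : InGrp 7 100 H37 g := by
  rcases List.mem_cons.1 hg with rfl | hg
  · exact inH_a
  · rw [List.mem_singleton.1 hg]; exact inH_b

theorem orb_msk0 (j : Fin 100) (hj : msk0.testBit j = true) : j ∈ orbit H37 (⟨38, by norm_num⟩ : Fin 100) :=
  orbit_of_reach inH_a inH_ab (by norm_num) rch0 (by decide +kernel) j hj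
theorem orb_msk1 (j : Fin 100) (hj : msk1.testBit j = true) : j ∈ orbit H37 (⟨39, by norm_num⟩ : Fin 100) :=
  orbit_of_reach inH_a inH_ab (by norm_num) rch1 (by decide +kernel) j hj
theorem orb_msk2 (j : Fin 100) (hj : msk2.testBit j = true) : j ∈ orbit H37 (⟨41, by norm_num⟩ : Fin 100) :=
  orbit_of_reach inH_a inH_ab (by norm_num) rch2 (by decide +kernel) j hj

theorem cover37 : ∀ z : Fin 100, mask63.testBit z = true → z = 37 ∨ msk0.testBit z = true ∨ msk1.testBit z = true ∨
    msk2.testBit z = true := by decide +kernel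

/-- the orbit representatives on pairs -/
def reps4 : Finset (Om63 × Om63) := {(pt37, pt37), (pt37, ⟨38, by decide⟩), (pt37, ⟨39, by decide⟩), (pt37, ⟨41, by decide⟩)}

theorem pair_of {p q : Om63} (y : Om63) {g : K1} (hg : g • pt37 = p) (h : (g⁻¹ • q : Om63).1 ∈ orbit H37 y.1) :
    ∃ k : K1, k • (pt37, y) = (p, q) := by
  obtain ⟨⟨h', hh⟩, he⟩ := h
  refine ⟨g * ⟨h', hh.1⟩, ?_⟩
  rw [mul_smul]
  have e1 : (⟨h', hh.1⟩ : K1) • pt37 = pt37 := Subtype.ext hh.2
  have e2 : (⟨h', hh.1⟩ : K1) • y = g⁻¹ • q := Subtype.ext he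
  have e3 : (⟨h', hh.1⟩ : K1) • (pt37, y) = (pt37, g⁻¹ • q) := Prod.ext e1 e2
  rw [e3]
  exact Prod.ext hg (smul_inv_smul g q)

theorem pairs4 (p : Om63 × Om63) : ∃ y ∈ reps4, ∃ g : K1, g • y = p := by
  obtain ⟨x, y⟩ := p
  obtain ⟨g, hg⟩ := trans63 x
  rcases cover37 (g⁻¹ • y : Om63).1 (g⁻¹ • y : Om63).2 with h | h | h | h
  · refine ⟨(pt37, pt37), by unfold reps4; simp, g, ?_⟩
    have e1 : g⁻¹ • y = pt37 := Subtype.ext h
    apply Prod.ext
    · exact hg
    · change g • pt37 = y
      rw [← e1, smul_inv_smul]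
  · exact ⟨(pt37, ⟨38, by decide⟩), by unfold reps4; simp, pair_of ⟨38, by decide⟩ hg (orb_msk0 _ h)⟩
  · exact ⟨(pt37, ⟨39, by decide⟩), by unfold reps4; simp, pair_of ⟨39, by decide⟩ hg (orb_msk1 _ h)⟩
  · exact ⟨(pt37, ⟨41, by decide⟩), by unfold reps4; simp, pair_of ⟨41, by decide⟩ hg (orb_msk2 _ h)⟩

theorem card_om : Fintype.card Om63 = 63 := by decide +kernel

theorem finite_K1 : Finite K1 := Nat.finite_of_card_ne_zero (by rw [card_K1]; norm_num)

theorem deg_14_21 : (∃ χ : IrrCharacter K1, charDegree (χ : K1 → ℂ) = 14) ∧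
    (∃ χ : IrrCharacter K1, charDegree (χ : K1 → ℂ) = 21) := by
  classical
  haveI := finite_K1
  haveI : Fintype K1 := Fintype.ofFinite K1
  refine hexagon (G := K1) adjA ?_ pt37 trans63 card_om ?_ ?_ ?_ ?_ reps4 ?_ pairs4
  · intro g x y
    unfold adjA
    rw [om63_smul, om63_smul, K1_adj g.2]
  · decide +kernel
  · have h1 : ∑ z : Om63, adjA pt37 z = psum (fun z => match adjB 37 z with | true => 1 | false => 0) 100 := by
      rw [← sum_om]
      · apply Finset.sum_congr rfl
        intro z _
        unfold adjA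
        change (if adjB 37 z.1 = true then 1 else 0) = _
        cases h1 : adjB 37 z.1 <;> simp
      · intro z hz hm
        rw [(adj_out' (y := 37) hz hm (by norm_num)).2]
    rw [h1]
    exact Nat.eq_of_beq_eq_true sum_ok
  · rw [sum_two]
    exact Nat.eq_of_beq_eq_true n2_ok
  · intro y
    rw [sum_three, sum_two]
    have h := (nall_iff _ _).1 row_ok y.1 y.1.2
    have hy : Nat.testBit mask63 (y.1 : Fin 100) = true := y.2
    rw [hy] at h
    have h2 := Nat.eq_of_beq_eq_true h
    change n3 37 y.1 + n2 37 y.1 = _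
    change n3 37 y.1 + n2 37 y.1 = rhsN y.1 at h2
    rw [h2]
    unfold rhsN adjA
    change (match adjB 37 y.1 with | true => 9 | false => 0) + (match Nat.beq 37 y.1 with | true => 9 | false => 0) + 3 = 9 * (if adjB 37 y.1 = true then 1 else 0) + _ + 3
    have e1 : (match adjB 37 (y.1 : Fin 100) with | true => 9 | false => 0) = 9 * (if adjB 37 (y.1 : Fin 100) = true then 1 else 0) := by
      cases adjB 37 (y.1 : Fin 100) <;> simp
    have e2 : (match Nat.beq 37 (y.1 : Fin 100) with | true => 9 | false => 0) = if pt37 = y then 9 else 0 := by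
      by_cases hp : pt37 = y
      · rw [if_pos hp, ← hp]
        rfl
      · rw [if_neg hp]
        cases hb : Nat.beq 37 (y.1 : Fin 100) with
        | false => rfl
        | true =>
          exfalso
          apply hp
          apply Subtype.ext
          apply Fin.ext
          exact Nat.eq_of_beq_eq_true hb
    rw [e1, e2]
  · decide +kernel

end Cfsg.Agent.DG33
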