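import Cfsg.Agent.Char.IndRep
import Cfsg.Agent.CharBase.Ortho

/-!
Decomposition of a permutation character by commuting idempotent matrices.
-/

set_option autoImplicit false

namespace Cfsg.Agent.DG33

open Cfsg Cfsg.Agent.Char Cfsg.Agent.CharBase
open scoped ComplexConjugate

universe u

section proj

variable {G : Type u} [Group G] {Ω : Type} [Fintype Ω] [DecidableEq Ω] [MulAction G Ω]

/-- permutation representation on functions -/
noncomputable def permRep (G : Type u) [Group G] (Ω : Type) [MulAction G Ω] : Representation ℂ G (Ω → ℂ) where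
  toFun g := LinearMap.funLeft ℂ ℂ (fun x => g⁻¹ • x)
  map_one' := by
    ext f x
    simp
  map_mul' g h := by
    ext f x
    simp [mul_smul]

theorem permRep_apply (g : G) (f : Ω → ℂ) (x : Ω) : permRep G Ω g f x = f (g⁻¹ • x) := rfl

/-- invariant matrices -/
def InvM (G : Type u) [Group G] {Ω : Type} [MulAction G Ω] {R : Type*} (P : Matrix Ω Ω R) : Prop :=
  ∀ (g : G) (x y : Ω), P (g • x) (g • y) = P x y

theorem permRep_comm {P : Matrix Ω Ω ℂ} (hG : InvM G P) (g : G) (f : Ω → ℂ) :
    permRep G Ω g (Matrix.toLin' P f) = Matrix.toLin' P (permRep G Ω g f) := by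
  funext x
  rw [permRep_apply, Matrix.toLin'_apply, Matrix.toLin'_apply]
  change ∑ y, P (g⁻¹ • x) y * f y = ∑ y, P x y * permRep G Ω g f y
  rw [← Equiv.sum_comp (MulAction.toPerm g) (fun y => P x y * permRep G Ω g f y)]
  apply Finset.sum_congr rfl
  intro y _
  rw [permRep_apply, MulAction.toPerm_apply, inv_smul_smul, ← hG g (g⁻¹ • x) y, smul_inv_smul]

/-- the image of an invariant idempotent -/
noncomputable def projSub (P : Matrix Ω Ω ℂ) (hG : InvM G P) : Subrepresentation (permRep G Ω) where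
  toSubmodule := LinearMap.range (Matrix.toLin' P)
  apply_mem_toSubmodule g := by
    rintro _ ⟨f, rfl⟩
    exact ⟨permRep G Ω g f, (permRep_comm hG g f).symm⟩

theorem isCharacter_proj {P : Matrix Ω Ω ℂ} (hP : P * P = P) (hG : InvM G P) :
    IsCharacter G (fun g => ∑ x : Ω, P x (g • x)) := by
  have h := Char.isCharacter_of_rep (projSub P hG).toRepresentation
  have heq : (projSub P hG).toRepresentation.character = fun g => ∑ x : Ω, P x (g • x) := by
    funext g
    let W := (projSub P hG).toSubmodule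
    let f : (Ω → ℂ) →ₗ[ℂ] (Ω → ℂ) := (permRep G Ω g) ∘ₗ (Matrix.toLin' P)
    have hfm : ∀ v, f v ∈ W := fun v => (projSub P hG).apply_mem_toSubmodule g ⟨v, rfl⟩
    have h1 : (projSub P hG).toRepresentation g = f.restrict (p := W) (q := W) (fun v _ => hfm v) := by
      ext ⟨w, hw⟩ x
      obtain ⟨v, rfl⟩ := hw
      change permRep G Ω g (Matrix.toLin' P v) x = permRep G Ω g (Matrix.toLin' P (Matrix.toLin' P v)) x
      rw [← Matrix.toLin'_mul_apply, hP]
    change LinearMap.trace ℂ _ ((projSub P hG).toRepresentation g) = _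
    rw [h1, LinearMap.trace_restrict_eq_of_forall_mem W f hfm]
    have h2 : f = Matrix.toLin' (Matrix.of fun x y => P (g⁻¹ • x) y) := by
      apply LinearMap.ext
      intro v
      funext x
      change permRep G Ω g (Matrix.toLin' P v) x = _
      rw [permRep_apply, Matrix.toLin'_apply, Matrix.toLin'_apply]
      rfl
    rw [h2, Matrix.trace_toLin'_eq, Matrix.trace, ← Equiv.sum_comp (MulAction.toPerm g)]
    apply Finset.sum_congr rfl
    intro x _
    rw [MulAction.toPerm_apply, Matrix.diag_apply, Matrix.of_apply, inv_smul_smul]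
  rw [← heq]
  exact h

end proj

section norm

variable {G : Type u} [Group G] [Fintype G]

theorem classInner_self_pos {θ : G → ℂ} (h1 : θ 1 ≠ 0) : classInner θ θ ≠ 0 := by
  intro h
  have h2 : classInner θ θ = (((Nat.card G : ℝ)⁻¹ * ∑ g : G, ‖θ g‖ ^ 2 : ℝ) : ℂ) := by
    unfold classInner
    push_cast
    congr 1
    · apply Finset.sum_congr rfl
      intro g _
      rw [Complex.mul_conj, Complex.normSq_eq_norm_sq]
      push_cast
      rfl
  rw [h2] at h
  have h3 : (Nat.card G : ℝ)⁻¹ * ∑ g : G, ‖θ g‖ ^ 2 = 0 := by exact_mod_cast h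
  have h4 : 0 < (Nat.card G : ℝ)⁻¹ := inv_pos.2 (by exact_mod_cast Nat.card_pos)
  have h5 : 0 < ∑ g : G, ‖θ g‖ ^ 2 :=
    Finset.sum_pos' (fun g _ => sq_nonneg _) ⟨1, Finset.mem_univ _, by positivity⟩
  exact (mul_pos h4 h5).ne' h3

theorem irr_of_sum {ι : Type*} [Fintype ι] (θ : ι → G → ℂ) (hθ : ∀ i, IsCharacter G (θ i)) (h1 : ∀ i, θ i 1 ≠ 0)
    (n : ℕ) (hn : classInner (∑ i, θ i) (∑ i, θ i) = n) (hle : n ≤ Fintype.card ι) : ∀ i, IsIrrCharacter G (θ i) := by
  classical
  choose a ha using fun i j => classInner_natCast (hθ i) (hθ j)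
  have hpos : ∀ i, 1 ≤ a i i := by
    intro i
    rcases Nat.eq_zero_or_pos (a i i) with h | h
    · exfalso
      apply classInner_self_pos (h1 i)
      rw [ha, h, Nat.cast_zero]
    · exact h
  have hsum : ∑ i, ∑ j, a i j = n := by
    rw [classInner_sum_left] at hn
    simp only [classInner_sum_right, ha] at hn
    exact_mod_cast hn
  have hdiag : ∑ i, a i i ≤ ∑ i, ∑ j, a i j :=
    Finset.sum_le_sum fun i _ => Finset.single_le_sum (f := fun j => a i j) (fun _ _ => Nat.zero_le _) (Finset.mem_univ i)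
  intro i
  rw [isIrrCharacter_iff (hθ i), ha]
  have h2 : ∑ i, a i i ≤ ∑ _i : ι, 1 := by
    rw [Finset.sum_const, Finset.card_univ, smul_eq_mul, mul_one]
    omega
  have h3 : ∑ _i : ι, 1 = ∑ i, a i i := le_antisymm (Finset.sum_le_sum fun i _ => hpos i) h2
  have h4 := (Finset.sum_eq_sum_iff_of_le (fun i _ => hpos i)).1 h3 i (Finset.mem_univ i)
  rw [← h4, Nat.cast_one]

variable {Ω : Type} [Fintype Ω] [DecidableEq Ω] [MulAction G Ω]

theorem card_orbits_le {X : Type*} [MulAction G X] (s : Finset X)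
    (h : ∀ x : X, ∃ y ∈ s, ∃ g : G, g • y = x) [Fintype (MulAction.orbitRel.Quotient G X)] :
    Fintype.card (MulAction.orbitRel.Quotient G X) ≤ s.card := by
  classical
  have hsurj : Function.Surjective (fun y : s => (Quotient.mk _ (y : X) : MulAction.orbitRel.Quotient G X)) := by
    intro q
    obtain ⟨x, rfl⟩ := Quotient.exists_rep q
    obtain ⟨y, hy, g, rfl⟩ := h x
    refine ⟨⟨y, hy⟩, ?_⟩
    apply Quotient.sound
    exact ⟨g⁻¹, inv_smul_smul g y⟩
  have := Fintype.card_le_of_surjective _ hsurj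
  rwa [Fintype.card_coe] at this

/-- norm of the permutation character -/
theorem classInner_perm [Fintype (MulAction.orbitRel.Quotient G (Ω × Ω))] :
    classInner (fun g : G => ∑ x : Ω, (1 : Matrix Ω Ω ℂ) x (g • x)) (fun g : G => ∑ x : Ω, (1 : Matrix Ω Ω ℂ) x (g • x)) =
      (Fintype.card (MulAction.orbitRel.Quotient G (Ω × Ω)) : ℂ) := by
  classical
  have h1 : ∀ g : G, ∑ x : Ω, (1 : Matrix Ω Ω ℂ) x (g • x) = (Fintype.card (MulAction.fixedBy Ω g) : ℂ) := by
    intro g
    have : Fintype.card (MulAction.fixedBy Ω g) = (Finset.univ.filter fun x : Ω => g • x = x).card := by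
      rw [Fintype.card_subtype]
      rfl
    rw [this, Finset.card_filter]
    push_cast
    apply Finset.sum_congr rfl
    intro x _
    rw [Matrix.one_apply]
    by_cases h : g • x = x
    · rw [if_pos h, if_pos h.symm]
    · rw [if_neg h, if_neg (fun h' => h h'.symm)]
  have h2 := MulAction.sum_card_fixedBy_eq_card_orbits_mul_card_group G (Ω × Ω)
  have h3 : ∀ g : G, Fintype.card (MulAction.fixedBy (Ω × Ω) g) = Fintype.card (MulAction.fixedBy Ω g) ^ 2 := by
    intro g
    rw [sq, ← Fintype.card_prod]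
    apply Fintype.card_congr
    exact
      { toFun := fun p => (⟨p.1.1, congrArg Prod.fst p.2⟩, ⟨p.1.2, congrArg Prod.snd p.2⟩)
        invFun := fun p => ⟨(p.1.1, p.2.1), Prod.ext p.1.2 p.2.2⟩
        left_inv := fun p => rfl
        right_inv := fun p => rfl }
  simp only [h3] at h2
  unfold classInner
  simp only [h1]
  have h4 : ∑ g : G, (Fintype.card (MulAction.fixedBy Ω g) : ℂ) * conj (Fintype.card (MulAction.fixedBy Ω g) : ℂ) =
      (Fintype.card (MulAction.orbitRel.Quotient G (Ω × Ω)) : ℂ) * (Fintype.card G : ℂ) := by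
    rw [← Nat.cast_mul, ← h2]
    push_cast
    apply Finset.sum_congr rfl
    intro g _
    rw [Complex.conj_natCast, sq]
  rw [h4, Nat.card_eq_fintype_card]
  have h5 : (Fintype.card G : ℂ) ≠ 0 := by exact_mod_cast Fintype.card_ne_zero
  field_simp

end norm

end Cfsg.Agent.DG33
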