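import Cfsg.Agent.DG33.K1
import Cfsg.Agent.CycG.PrinData
import Cfsg.Agent.Uni.Simple

/-!
`PSU(3,3)` has an irreducible character of degree divisible by 6 (principal 7-block).
-/

set_option autoImplicit false

namespace Cfsg.Agent.DG33

open Cfsg Cfsg.Agent.PermTab Cfsg.Agent.J2Tab MulAction Finset
open Cfsg.Agent.BR (Sp dg)
open Cfsg.Agent.CharBase (oneIrr)

theorem perfect_K1 : commutator K1 = ⊤ := by
  obtain ⟨e⟩ := exists_iso9
  have hF : Fintype.card F9 = 3 ^ 2 := by rw [card_f9]; norm_num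
  have hp : commutator (SU 3 F9 3) = ⊤ := Uni.SU_perfect hF (by norm_num) (by norm_num)
  let f : SU 3 F9 3 →* K1 := e.symm.toMonoidHom.comp (QuotientGroup.mk' (Subgroup.center (SU 3 F9 3)))
  have hf : Function.Surjective f := e.symm.surjective.comp (QuotientGroup.mk'_surjective _)
  have h1 : (commutator (SU 3 F9 3)).map f = commutator K1 := by
    rw [commutator_def, commutator_def, Subgroup.map_commutator, Subgroup.map_top_of_surjective f hf]
  rw [← h1, hp, Subgroup.map_top_of_surjective f hf]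

theorem x7_mem : toPerm 7 100 xT ∈ K1 := mem_of_sift (by norm_num) hid chk1 (by decide +kernel) (by decide +kernel)

theorem xT_valid : tvalid 7 100 xT = true := by decide +kernel

/-- an element of order 7 -/
noncomputable def x7 : K1 := ⟨toPerm 7 100 xT, x7_mem⟩

theorem x7_apply (i : Fin 100) : (((x7 : K1) : Equiv.Perm (Fin 100)) i : ℕ) = tget 7 xT i := by
  unfold x7
  exact toPerm_apply xT_valid i

theorem x7_fix : ∀ i : Fin 100, tget 7 xT i = i → i = 0 ∨ i = 1 := by decide +kernel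
theorem x7_fix1 : tget 7 xT 1 = 1 := by decide +kernel

theorem x7_pow : ∀ i : Fin 100, (fun x => tget 7 xT x)^[7] i = i := by decide +kernel

theorem x7_order : orderOf x7 = 7 := by
  haveI : Fact (Nat.Prime 7) := ⟨by norm_num⟩
  apply orderOf_eq_prime
  · apply Subtype.ext
    apply Equiv.ext
    intro i
    apply Fin.ext
    change (((x7 : Equiv.Perm (Fin 100)) ^ 7) i : ℕ) = i
    rw [iterate_tab (w := 7) (f := fun x => tget 7 xT x) (fun x => (x7_apply x).symm)]
    exact x7_pow i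
  · intro h
    have h1 := x7_apply 2
    rw [h] at h1
    revert h1
    change ((2 : Fin 100) : ℕ) = tget 7 xT 2 → False
    decide +kernel

/-- the Sylow 7-subgroup -/
noncomputable def P7 : Subgroup K1 := Subgroup.zpowers x7

theorem card_P7 : Nat.card P7 = 7 := by
  unfold P7
  rw [Nat.card_zpowers, x7_order]

theorem sp7 : Sp 7 P7 := by
  refine ⟨card_P7, ?_⟩
  have h := P7.card_mul_index
  rw [card_P7, card_K1] at h
  omega

theorem K1_zero {k : Equiv.Perm (Fin 100)} (hk : k ∈ K1) : k 0 = 0 := by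
  have hK : K1 = grp 7 100 [lev1, lev2, lev3] := rfl
  have h := (concl0.stab k (concl0.le (hK ▸ hk))).2 (hK ▸ hk)
  exact h

theorem P7_fix {k : K1} (hk : k ∈ P7) : (k : Equiv.Perm (Fin 100)) 1 = 1 := by
  have h1 : (x7 : Equiv.Perm (Fin 100)) 1 = 1 := Fin.ext (by rw [x7_apply]; exact x7_fix1)
  have h2 : P7 ≤ (MulAction.stabilizer (Equiv.Perm (Fin 100)) (1 : Fin 100)).comap K1.subtype := by
    unfold P7
    rw [Subgroup.zpowers_le]
    exact h1
  exact h2 hk

theorem norm_fix {n : K1} (hn : n ∈ Subgroup.normalizer (P7 : Set K1)) : (n : Equiv.Perm (Fin 100)) 1 = 1 := by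
  have h1 : n⁻¹ * x7 * n ∈ P7 := by
    have := (Subgroup.mem_normalizer_iff.1 (inv_mem hn) x7).1 (Subgroup.mem_zpowers x7)
    rwa [inv_inv] at this
  have h2 := P7_fix h1
  have h3 : (x7 : Equiv.Perm (Fin 100)) ((n : Equiv.Perm (Fin 100)) 1) = (n : Equiv.Perm (Fin 100)) 1 := by
    have h4 : ((n⁻¹ * x7 * n : K1) : Equiv.Perm (Fin 100)) 1 =
        (n : Equiv.Perm (Fin 100))⁻¹ ((x7 : Equiv.Perm (Fin 100)) ((n : Equiv.Perm (Fin 100)) 1)) := rfl
    rw [h4, Equiv.Perm.inv_eq_iff_eq] at h2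
    exact h2
  have h5 := x7_fix ((n : Equiv.Perm (Fin 100)) 1) (by rw [← x7_apply, h3])
  rcases h5 with h5 | h5
  · exfalso
    have h6 := K1_zero n.2
    have h7 := (n : Equiv.Perm (Fin 100)).injective (h5.trans h6.symm)
    exact absurd h7 (by decide)
  · exact h5

/-- the stabilizer of 1 -/
noncomputable def K2' : Subgroup (Equiv.Perm (Fin 100)) := grp 7 100 [lev2, lev3]

theorem card_K2 : Nat.card K2' = 168 := by
  have h := card_grp (w := 7) (n := 100) (idt := idt) (by norm_num) hid [lev2, lev3]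
    ((chkChain_cons _ _ _ _ _).1 chk1).2.2
  have h2 : chainCard 100 [lev2, lev3] = 168 := by decide +kernel
  rw [h2] at h
  exact h

theorem mem_K2 {k : Equiv.Perm (Fin 100)} (hk : k ∈ K1) : k 1 = 1 ↔ k ∈ K2' := concl1.stab k hk

theorem norm_le : (Subgroup.normalizer (P7 : Set K1)).map K1.subtype ≤ K2' := by
  rintro _ ⟨n, hn, rfl⟩
  exact (mem_K2 n.2).1 (norm_fix hn)

theorem card_norm_dvd : Nat.card (Subgroup.normalizer (P7 : Set K1)) ∣ 168 := by
  have h1 := Subgroup.card_dvd_of_le norm_le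
  rw [card_K2] at h1
  have h2 : Nat.card ((Subgroup.normalizer (P7 : Set K1)).map K1.subtype) = Nat.card (Subgroup.normalizer (P7 : Set K1)) :=
    Subgroup.card_map_of_injective K1.subtype_injective
  rwa [h2] at h1

theorem g3_mem : toPerm 7 100 g3 ∈ K1 := (inGrp1 (g := g3) (by decide)).2

theorem g3_valid : tvalid 7 100 g3 = true := (inGrp1 (g := g3) (by decide)).1

/-- generator -/
noncomputable def y3 : K1 := ⟨toPerm 7 100 g3, g3_mem⟩

theorem g3_not : ∀ k : Fin 7, ∃ i : Fin 100, (fun x => tget 7 xT x)^[k] (tget 7 g3 i) ≠ tget 7 g3 (tget 7 xT i) := by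
  decide +kernel

theorem y3_not : y3 ∉ Subgroup.normalizer (P7 : Set K1) := by
  intro h
  have h1 : y3 * x7 * y3⁻¹ ∈ P7 := (Subgroup.mem_normalizer_iff.1 h x7).1 (Subgroup.mem_zpowers x7)
  unfold P7 at h1
  rw [mem_zpowers_iff_mem_range_orderOf, x7_order, Finset.mem_image] at h1
  obtain ⟨k, hk, he⟩ := h1
  obtain ⟨i, hi⟩ := g3_not ⟨k, Finset.mem_range.1 hk⟩
  apply hi
  have h2 : x7 ^ k * y3 = y3 * x7 := by rw [he]; group
  have h3 := congrArg (fun z : K1 => (((z : Equiv.Perm (Fin 100)) i : Fin 100) : ℕ)) h2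
  have hy : ∀ j : Fin 100, (((y3 : K1) : Equiv.Perm (Fin 100)) j : ℕ) = tget 7 g3 j := fun j => toPerm_apply g3_valid j
  have e1 : (((x7 ^ k * y3 : K1) : Equiv.Perm (Fin 100)) i : ℕ) = (fun x => tget 7 xT x)^[k] (tget 7 g3 i) := by
    change ((((x7 : Equiv.Perm (Fin 100)) ^ k) ((y3 : Equiv.Perm (Fin 100)) i) : Fin 100) : ℕ) = _
    rw [iterate_tab (w := 7) (f := fun x => tget 7 xT x) (fun x => (x7_apply x).symm), hy]
  have e2 : (((y3 * x7 : K1) : Equiv.Perm (Fin 100)) i : ℕ) = tget 7 g3 (tget 7 xT i) := by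
    change (((y3 : Equiv.Perm (Fin 100)) ((x7 : Equiv.Perm (Fin 100)) i) : Fin 100) : ℕ) = _
    rw [hy, x7_apply]
  change (((x7 ^ k * y3 : K1) : Equiv.Perm (Fin 100)) i : ℕ) = (((y3 * x7 : K1) : Equiv.Perm (Fin 100)) i : ℕ) at h3
  rw [e1, e2] at h3
  exact h3

theorem y3_one : (y3 : Equiv.Perm (Fin 100)) 1 = 1 := by
  apply Fin.ext
  change ((toPerm 7 100 g3 1 : Fin 100) : ℕ) = _
  rw [toPerm_apply g3_valid]
  decide +kernel

theorem card_norm : Nat.card (Subgroup.normalizer (P7 : Set K1)) = 21 := by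
  haveI := finite_K1
  haveI : Fact (Nat.Prime 7) := ⟨by norm_num⟩
  have hdvd := card_norm_dvd
  have h7 : 7 ∣ Nat.card (Subgroup.normalizer (P7 : Set K1)) := by
    have := Subgroup.card_dvd_of_le (Subgroup.le_normalizer (H := P7))
    rwa [card_P7] at this
  have hidx := (Subgroup.normalizer (P7 : Set K1)).card_mul_index
  rw [card_K1] at hidx
  have hmod : (Subgroup.normalizer (P7 : Set K1)).index ≡ 1 [MOD 7] := by
    obtain ⟨Q, hQ⟩ := sp7.exists_sylow
    have h1 := card_sylow_modEq_one 7 K1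
    have h2 : ((Q : Sylow 7 K1) : Set K1) = (P7 : Set K1) := by rw [← hQ]; rfl
    rw [Sylow.card_eq_index_normalizer Q, h2] at h1
    exact h1
  have hne : Nat.card (Subgroup.normalizer (P7 : Set K1)) ≠ 168 := by
    intro h
    have h1 : (Subgroup.normalizer (P7 : Set K1)).map K1.subtype = K2' := by
      apply Subgroup.eq_of_le_of_card_ge norm_le
      rw [card_K2, Subgroup.card_map_of_injective K1.subtype_injective, h]
    have h2 : (y3 : Equiv.Perm (Fin 100)) ∈ K2' := (mem_K2 y3.2).1 y3_one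
    rw [← h1] at h2
    obtain ⟨n, hn, he⟩ := h2
    have : n = y3 := Subtype.ext he
    exact y3_not (this ▸ hn)
  generalize Nat.card (Subgroup.normalizer (P7 : Set K1)) = n at *
  generalize (Subgroup.normalizer (P7 : Set K1)).index = m at *
  have hn : n ∈ Nat.divisors 168 := Nat.mem_divisors.2 ⟨hdvd, by norm_num⟩
  have hdl : Nat.divisors 168 = {1, 2, 3, 4, 6, 7, 8, 12, 14, 21, 24, 28, 42, 56, 84, 168} := by decide +kernel
  rw [hdl] at hn
  simp only [Finset.mem_insert, Finset.mem_singleton] at hn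
  unfold Nat.ModEq at hmod
  rcases hn with rfl | rfl | rfl | rfl | rfl | rfl | rfl | rfl | rfl | rfl | rfl | rfl | rfl | rfl | rfl | rfl <;> omega

theorem six : ∃ χ : IrrCharacter K1, 6 ∣ charDegree (χ : K1 → ℂ) := by
  classical
  haveI := finite_K1
  haveI : Fact (Nat.Prime 7) := ⟨by norm_num⟩
  by_contra hcon
  push Not at hcon
  obtain ⟨B⟩ := CycG.nonempty_data sp7
  have hidx : (Subgroup.normalizer (P7 : Set K1)).index = 288 := by
    have h := (Subgroup.normalizer (P7 : Set K1)).card_mul_index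
    rw [card_norm, card_K1] at h
    omega
  have hCN : Subgroup.centralizer (P7 : Set K1) ≤ Subgroup.normalizer (P7 : Set K1) :=
    Subgroup.centralizer_le_normalizer _
  have hind : BR.ind P7 = 1 ∨ BR.ind P7 = 3 := by
    have h1 := Subgroup.card_mul_index ((Subgroup.centralizer (P7 : Set K1)).subgroupOf (Subgroup.normalizer (P7 : Set K1)))
    rw [card_norm] at h1
    have h2 : BR.ind P7 = ((Subgroup.centralizer (P7 : Set K1)).subgroupOf (Subgroup.normalizer (P7 : Set K1))).index := rfl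
    rw [← h2] at h1
    have h3 : Nat.card ((Subgroup.centralizer (P7 : Set K1)).subgroupOf (Subgroup.normalizer (P7 : Set K1))) =
        Nat.card (Subgroup.centralizer (P7 : Set K1)) :=
      Nat.card_congr (Subgroup.subgroupOfEquivOfLe hCN).toEquiv
    have h4 : P7 ≤ Subgroup.centralizer (P7 : Set K1) := by
      have hc : IsMulCommutative P7 := by unfold P7; infer_instance
      exact Subgroup.le_centralizer P7
    have h5 := Subgroup.card_dvd_of_le h4
    rw [card_P7, ← h3] at h5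
    obtain ⟨k, hk⟩ := h5
    rw [hk] at h1
    have h6 : k * BR.ind P7 = 3 := by nlinarith
    have h7 : BR.ind P7 ∣ 3 := Dvd.intro_left k h6
    exact (Nat.dvd_prime (by norm_num)).1 h7
  obtain ⟨ψ, hψ⟩ := B.Y_nonempty (by norm_num)
  have hdeg := B.degEq hψ
  have hone : dg (oneIrr K1) = 1 := by
    apply H34.Deg.charDegree_of_eq
    rw [CharBase.oneIrr_apply, Nat.cast_one]
  have hne1 : ∀ χ : IrrCharacter K1, χ ≠ oneIrr K1 → dg χ ≠ 1 := fun χ h h' => h (BR.eq_one_of_perfect perfect_K1 h')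
  have hδ1 := B.δ_one sp7
  rcases hind with hi | hi
  · have hX : B.X = {oneIrr K1} := by
      have h1 := B.cardX
      rw [hi, Finset.card_eq_one] at h1
      obtain ⟨a, ha⟩ := h1
      have h2 := B.one_mem
      rw [ha, Finset.mem_singleton] at h2
      rw [ha, h2]
    rw [hX, Finset.sum_singleton, hδ1, hone] at hdeg
    have h3 : dg ψ = 1 := by
      rcases B.sgn₀ with h | h <;> rw [h] at hdeg <;> omega
    have h4 := BR.eq_one_of_perfect perfect_K1 h3
    have h5 := Finset.disjoint_left.1 B.disj B.one_mem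
    rw [h4] at hψ
    exact h5 hψ
  · have hX3 : (B.X.erase (oneIrr K1)).card = 2 := by
      rw [Finset.card_erase_of_mem B.one_mem, B.cardX, hi]
    obtain ⟨a, b, hab, hX⟩ := Finset.card_eq_two.1 hX3
    have ha : a ∈ B.X.erase (oneIrr K1) := by rw [hX]; simp
    have hb : b ∈ B.X.erase (oneIrr K1) := by rw [hX]; simp
    rw [← Finset.add_sum_erase _ _ B.one_mem, hX, Finset.sum_pair hab, hδ1, hone] at hdeg
    obtain ⟨ha1, haX⟩ := Finset.mem_erase.1 ha
    obtain ⟨hb1, hbX⟩ := Finset.mem_erase.1 hb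
    have da := B.dvd_X sp7 haX
    have db := B.dvd_X sp7 hbX
    have de := B.dvd_Y sp7 hψ
    rw [hi, hidx] at da db de
    have ca := B.congr_X sp7 haX
    have cb := B.congr_X sp7 hbX
    have ce := B.congr_Y sp7 hψ
    rw [hi] at ce
    have na := hne1 a ha1
    have nb := hne1 b hb1
    have key : ∀ n : ℕ, n ∣ 864 → ¬ 6 ∣ n → n ∈ ({1, 2, 3, 4, 8, 9, 16, 27, 32} : Finset ℕ) := by
      intro n hn h6
      have h1 : n ∈ Nat.divisors 864 := Nat.mem_divisors.2 ⟨hn, by norm_num⟩
      have h2 : ∀ n ∈ Nat.divisors 864, ¬ 6 ∣ n → n ∈ ({1, 2, 3, 4, 8, 9, 16, 27, 32} : Finset ℕ) := by decide +kernel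
      exact h2 n h1 h6
    have ka := key _ (by exact da) (hcon a)
    have kb := key _ (by exact db) (hcon b)
    have ke := key _ (by exact de) (hcon ψ)
    have sa := B.sgn a haX
    have sb := B.sgn b hbX
    have se := B.sgn₀
    change dg a ∈ _ at ka
    change dg b ∈ _ at kb
    change dg ψ ∈ _ at ke
    generalize dg a = x at *
    generalize dg b = y at *
    generalize dg ψ = z at *
    generalize B.δ a = u at *
    generalize B.δ b = v at *
    generalize B.δ₀ = w at *
    simp only [Finset.mem_insert, Finset.mem_singleton] at ka kb ke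
    have hx : (x = 8 ∧ u = 1) ∨ (x = 27 ∧ u = -1) := by
      rcases sa with rfl | rfl <;> rcases ka with rfl | rfl | rfl | rfl | rfl | rfl | rfl | rfl | rfl <;> omega
    have hy : (y = 8 ∧ v = 1) ∨ (y = 27 ∧ v = -1) := by
      rcases sb with rfl | rfl <;> rcases kb with rfl | rfl | rfl | rfl | rfl | rfl | rfl | rfl | rfl <;> omega
    have hz : (z = 4 ∧ w = 1) ∨ (z = 32 ∧ w = 1) ∨ (z = 3 ∧ w = -1) := by
      rcases se with rfl | rfl <;> rcases ke with rfl | rfl | rfl | rfl | rfl | rfl | rfl | rfl | rfl <;> omega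
    rcases hx with ⟨rfl, rfl⟩ | ⟨rfl, rfl⟩ <;> rcases hy with ⟨rfl, rfl⟩ | ⟨rfl, rfl⟩ <;>
      rcases hz with ⟨rfl, rfl⟩ | ⟨rfl, rfl⟩ | ⟨rfl, rfl⟩ <;> norm_num at hdeg

end Cfsg.Agent.DG33
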